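import Cfsg.Agent.R2.T1.E5.Tor
import Cfsg.Agent.R2.T1.Odd.Typ
import Cfsg.Agent.R2.T1.Odd.Nine5
import Cfsg.Agent.R2.T1.Nodd.Fin
import Cfsg.Agent.R2.PX.A.Main

/-!
# S5771, n = 8, p = 5 (helper24)

* `eight5` : `A_8` in characteristic 5.
-/

set_option autoImplicit false
set_option maxRecDepth 100000

namespace Cfsg.Agent.R2.T1.E5

open Cfsg Cfsg.Lie Module Equiv Equiv.Perm
open Cfsg.Agent.H943.E7V.Block (D1 rho)
open Cfsg.Agent.H952.F4 (ev es MaxAlt)
open Cfsg.Agent.R2.T1 Cfsg.Agent.R2.T1.Odd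

universe u

/-- conjugacy in `A_8` -/
theorem conj8 {a b : A8} (h : (a : Perm (Fin 8)).cycleType = (b : Perm (Fin 8)).cycleType)
    (ht : ∃ t : Perm (Fin 8), sign t = -1 ∧ t * (b : Perm (Fin 8)) * t⁻¹ = b) : ∃ g : A8, g * b * g⁻¹ = a := by
  have hc : IsConj (b : Perm (Fin 8)) (a : Perm (Fin 8)) := Perm.isConj_iff_cycleType_eq.2 h.symm
  obtain ⟨c, hc⟩ := isConj_iff.1 hc
  rcases Int.units_eq_one_or (sign c) with h1 | h1
  · exact ⟨⟨c, mem_alternatingGroup.2 h1⟩, Subtype.ext hc⟩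
  · obtain ⟨t, ht1, ht2⟩ := ht
    refine ⟨⟨c * t, mem_alternatingGroup.2 (by rw [Perm.sign_mul, h1, ht1]; decide)⟩, Subtype.ext ?_⟩
    show c * t * (b : Perm (Fin 8)) * (c * t)⁻¹ = a
    rw [← hc]
    nth_rewrite 2 [← ht2]
    group

section
variable {F : Type u} [Field F] {ψ : A8 →* Gh F}

theorem ev_type {M : Type*} [AddCommGroup M] [Module F M] (ρ : Representation F (Gh F) M) {a b : A8}
    (h : (a : Perm (Fin 8)).cycleType = (b : Perm (Fin 8)).cycleType)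
    (ht : ∃ t : Perm (Fin 8), sign t = -1 ∧ t * (b : Perm (Fin 8)) * t⁻¹ = b) : ev (ρ (ψ a)) 1 = ev (ρ (ψ b)) 1 := by
  obtain ⟨g, rfl⟩ := conj8 h ht
  rw [map_mul ψ, map_mul ψ, map_inv ψ, Cfsg.Agent.H944.E6T.ev_conj]

/-- the elements -/
def b2 : A8 := ⟨swap 0 1 * swap 2 3, by rw [mem_alternatingGroup]; decide +kernel⟩
def b24 : A8 := ⟨swap 0 1 * swap 2 3 * (swap 4 5 * swap 6 7), by rw [mem_alternatingGroup]; decide +kernel⟩
def b3 : A8 := ⟨swap 0 1 * swap 1 2, by rw [mem_alternatingGroup]; decide +kernel⟩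
def b3' : A8 := ⟨swap 4 5 * swap 5 6, by rw [mem_alternatingGroup]; decide +kernel⟩
def b42 : A8 := ⟨swap 0 1 * swap 1 2 * (swap 2 3 * swap 4 5), by rw [mem_alternatingGroup]; decide +kernel⟩

theorem P_lt : P 8 lt = b2 := by
  apply Subtype.ext; rw [coe_P (m := 8) le_rfl (by decide)]; decide +kernel
theorem P_ls : P 8 ls = b24 := by
  apply Subtype.ext; rw [coe_P (m := 8) le_rfl (by decide)]; decide +kernel
theorem P_l3 : P 8 l3 = b3 := by
  apply Subtype.ext; rw [coe_P (m := 8) le_rfl (by decide)]; decide +kernel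
theorem P_l33 : P 8 l33 = b3 * b3' := by
  apply Subtype.ext; rw [coe_P (m := 8) le_rfl (by decide)]; decide +kernel
theorem P_l42 : P 8 l42 = b42 := by
  apply Subtype.ext; rw [coe_P (m := 8) le_rfl (by decide)]; decide +kernel

theorem t2 : (b2 : Perm (Fin 8)).cycleType = {2, 2} := by decide +kernel
theorem t24 : (b24 : Perm (Fin 8)).cycleType = {2, 2, 2, 2} := by decide +kernel
theorem t3 : (b3 : Perm (Fin 8)).cycleType = {3} := by decide +kernel
theorem t33 : ((b3 * b3' : A8) : Perm (Fin 8)).cycleType = {3, 3} := by decide +kernel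
theorem t42 : (b42 : Perm (Fin 8)).cycleType = {4, 2} := by decide +kernel

theorem s2 : ∃ t : Perm (Fin 8), sign t = -1 ∧ t * (b2 : Perm (Fin 8)) * t⁻¹ = b2 := ⟨swap 0 1, by decide +kernel⟩
theorem s24 : ∃ t : Perm (Fin 8), sign t = -1 ∧ t * (b24 : Perm (Fin 8)) * t⁻¹ = b24 := ⟨swap 0 1, by decide +kernel⟩
theorem s3 : ∃ t : Perm (Fin 8), sign t = -1 ∧ t * (b3 : Perm (Fin 8)) * t⁻¹ = b3 := ⟨swap 6 7, by decide +kernel⟩
theorem s33 : ∃ t : Perm (Fin 8), sign t = -1 ∧ t * ((b3 * b3' : A8) : Perm (Fin 8)) * t⁻¹ = (b3 * b3' : A8) :=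
  ⟨swap 3 7, by decide +kernel⟩
theorem s42 : ∃ t : Perm (Fin 8), sign t = -1 ∧ t * (b42 : Perm (Fin 8)) * t⁻¹ = b42 := ⟨swap 6 7, by decide +kernel⟩

variable {M : Type*} [AddCommGroup M] [Module F M] (ρ : Representation F (Gh F) M)

theorem e2 {a : A8} (h : (a : Perm (Fin 8)).cycleType = {2, 2}) : ev (ρ (ψ a)) 1 = ev (ρ (ψ b2)) 1 := ev_type ρ (h.trans t2.symm) s2
theorem e24 {a : A8} (h : (a : Perm (Fin 8)).cycleType = {2, 2, 2, 2}) : ev (ρ (ψ a)) 1 = ev (ρ (ψ b24)) 1 := ev_type ρ (h.trans t24.symm) s24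
theorem e3 {a : A8} (h : (a : Perm (Fin 8)).cycleType = {3}) : ev (ρ (ψ a)) 1 = ev (ρ (ψ b3)) 1 := ev_type ρ (h.trans t3.symm) s3
theorem e33 {a : A8} (h : (a : Perm (Fin 8)).cycleType = {3, 3}) : ev (ρ (ψ a)) 1 = ev (ρ (ψ (b3 * b3'))) 1 := ev_type ρ (h.trans t33.symm) s33
theorem e42 {a : A8} (h : (a : Perm (Fin 8)).cycleType = {4, 2}) : ev (ρ (ψ a)) 1 = ev (ρ (ψ b42)) 1 := ev_type ρ (h.trans t42.symm) s42

end

variable {F : Type u} [Field F] [Finite F] {ψ : A8 →* Gh F}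

theorem L_cases (h3 : (3 : F) ≠ 0) {x : Gh F} (hx : x ^ 3 = 1) (hV : ev (V F x) 1 = 20) :
    ev (L F x) 1 = 43 ∨ ev (L F x) 1 = 49 := by
  have hx1 : x ≠ 1 := by
    rintro rfl
    rw [Cfsg.Agent.R2.T1.Art.ev_one, finrank_V] at hV
    omega
  rcases three h3 hx hx1 with h | h | h | h | h <;> omega

theorem l_vals (h2 : (2 : F) ≠ 0) (h3 : (3 : F) ≠ 0) (v3 : ev (V F (ψ b3)) 1 = 20) (v33 : ev (V F (ψ (b3 * b3'))) 1 = 20) :
    ev (L F (ψ b3)) 1 = 43 ∧ ev (L F (ψ (b3 * b3'))) 1 = 43 := by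
  have o3 : b3 ^ 3 = 1 := by decide +kernel
  have o3' : b3' ^ 3 = 1 := by decide +kernel
  have o33 : (b3 * b3') ^ 3 = 1 := by decide +kernel
  have o33' : (b3 * b3' * b3') ^ 3 = 1 := by decide +kernel
  have p3 : ∀ {a : A8}, a ^ 3 = 1 → ψ a ^ 3 = 1 := fun h => by rw [← map_pow, h, map_one]
  have c1 : b3 * b3' = b3' * b3 := by decide +kernel
  have c2 : (b3 * b3') * (b3 * b3' * b3') = (b3 * b3' * b3') * (b3 * b3') := by decide +kernel
  have q3' : (b3' : Perm (Fin 8)).cycleType = {3} := by decide +kernel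
  have q33' : ((b3 * b3' * b3' : A8) : Perm (Fin 8)).cycleType = {3, 3} := by decide +kernel
  have q3a : (((b3 * b3') * (b3 * b3' * b3') : A8) : Perm (Fin 8)).cycleType = {3} := by decide +kernel
  have q3b : (((b3 * b3') * (b3 * b3' * b3') * (b3 * b3' * b3') : A8) : Perm (Fin 8)).cycleType = {3} := by decide +kernel
  constructor
  · rcases L_cases h3 (p3 o3) v3 with h | h
    · exact h
    · exfalso
      refine no49 h2 h3 (x := ψ b3) (z := ψ b3') (p3 o3) (p3 o3') (by rw [← map_mul, c1, map_mul]) v3 ?_ ?_ ?_ h ?_ ?_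
      · rw [e3 (V F) q3', v3]
      · rw [← map_mul, v33]
      · rw [← map_mul, ← map_mul, e33 (V F) q33', v33]
      · rw [e3 (L F) q3', h]
      · rw [← map_mul, ← map_mul, e33 (L F) q33']
  · rcases L_cases h3 (p3 o33) v33 with h | h
    · exact h
    · exfalso
      refine no49 h2 h3 (x := ψ (b3 * b3')) (z := ψ (b3 * b3' * b3')) (p3 o33) (p3 o33') (by rw [← map_mul, c2, map_mul])
        v33 ?_ ?_ ?_ h ?_ ?_
      · rw [e33 (V F) q33', v33]
      · rw [← map_mul, e3 (V F) q3a, v3]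
      · rw [← map_mul, ← map_mul, e3 (V F) q3b, v3]
      · rw [e33 (L F) q33', h]
      · rw [← map_mul, ← map_mul, e3 (L F) q3a, e3 (L F) q3b]

/-- **`n = 8`, characteristic 5** -/
theorem eight5 {H : Subgroup ↥(chevE7.group F)} {φ : A8 →* ↥(chevE7.group F)} (hM : MaxAlt H 8 φ) (hL : Lift φ ψ)
    (h5 : (5 : F) = 0) (h20 : ev (V F (ψ (P 8 l3))) 1 = 20) : False := by
  have h2 : (2 : F) ≠ 0 := by
    intro h
    have : (1 : F) = 0 := by linear_combination h5 - 2 * h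
    exact one_ne_zero this
  have h3 : (3 : F) ≠ 0 := by
    intro h
    have : (1 : F) = 0 := by linear_combination 2 * h - h5
    exact one_ne_zero this
  have hchar : CharP F 5 := by
    obtain ⟨p, hp⟩ := CharP.exists F
    have h6 : p ∣ 5 := (CharP.cast_eq_zero_iff F p 5).1 (by exact_mod_cast h5)
    have h7 : p = 5 := by
      rcases (Nat.dvd_prime (by norm_num : Nat.Prime 5)).1 h6 with h | h
      · exact absurd h (CharP.char_ne_one F p)
      · exact h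
    rw [← h7]; exact hp
  have hψ := Nodd.lift_inj hM hL
  have v33 := Odd.d33 (n := 8) h2 h3 hψ le_rfl
  obtain ⟨tt, ts, t4, -, -, -, -⟩ := types (n := 8) le_rfl h2 hψ
  rw [P_lt] at tt
  rw [P_ls] at ts
  rw [P_l42] at t4
  rw [P_l33] at v33
  rw [P_l3] at h20
  obtain ⟨k1, k2⟩ := l_vals h2 h3 h20 v33
  have ne1 : ∀ {a : A8}, a ≠ 1 → ad F (ψ a) ≠ 1 := fun h h' => h (hψ _ h')
  have q2 : ψ b2 * ψ b2 = 1 := by
    rw [← map_mul, show b2 * b2 = 1 by decide +kernel, map_one]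
  have q24 : ψ b24 * ψ b24 = 1 := by
    rw [← map_mul, show b24 * b24 = 1 by decide +kernel, map_one]
  have m2 := (two h2 q2 (ne1 (by decide +kernel))).2
  have m24 := (two h2 q24 (ne1 (by decide +kernel))).2
  apply Cfsg.Agent.R2.PX.A.no_patX hM hL
  exact
    { v2 := fun a ha => (e2 (V F) ha).trans tt
      v24 := fun a ha => (e24 (V F) ha).trans ts
      v3 := fun a ha => (e3 (V F) ha).trans h20
      v33 := fun a ha => (e33 (V F) ha).trans v33
      v42 := fun a ha => (e42 (V F) ha).trans t4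
      l2 := fun a ha => (e2 (L F) ha).trans m2
      l24 := fun a ha => (e24 (L F) ha).trans m24
      l3 := fun a ha => (e3 (L F) ha).trans k1
      l33 := fun a ha => (e33 (L F) ha).trans k2 }

end Cfsg.Agent.R2.T1.E5
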